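import Mathlib.AlgebraicGeometry.Morphisms.Flat
import Mathlib.AlgebraicGeometry.Noetherian

/-!
# Small affine charts of a morphism

`exists_chart`: for `f : X ⟶ Y` and `x ∈ V ⊆ X` open there are affine opens `Spec A ⊆ V` around `x` and
`Spec R ⊆ Y` with `f(Spec A) ⊆ Spec R`; `flat_of_chart`, `finiteType_of_chart`, `isNoetherianRing_of_openImmersion`
transfer properties.
-/

set_option autoImplicit false

universe u

open CategoryTheory CategoryTheory.Limits AlgebraicGeometry

namespace Groth.Agent.Dual.H349.Chart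

variable {X Y : Scheme.{u}} (f : X ⟶ Y)

theorem exists_chart (x : X) (V : X.Opens) (hx : x ∈ V) :
    ∃ (R A : CommRingCat.{u}) (jU : Spec A ⟶ X) (jV : Spec R ⟶ Y) (_ : IsOpenImmersion jU)
      (_ : IsOpenImmersion jV) (φ : R ⟶ A), jU ≫ f = Spec.map φ ≫ jV ∧ x ∈ jU.opensRange ∧
      jU.opensRange ≤ V := by
  obtain ⟨R, jV, hjV, y, hy⟩ : ∃ (R : CommRingCat.{u}) (j : Spec R ⟶ Y) (_ : IsOpenImmersion j), f x ∈ Set.range j :=
    ⟨_, Y.affineCover.f (Y.affineCover.idx (f x)), Y.affineCover.map_prop _, Y.affineCover.covers (f x)⟩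
  have hx' : x ∈ V ⊓ f ⁻¹ᵁ jV.opensRange := ⟨hx, ⟨y, hy⟩⟩
  obtain ⟨W, hW, hxW, hWV⟩ := exists_isAffineOpen_mem_and_subset hx'
  have hr : Set.range hW.fromSpec = W := hW.range_fromSpec
  have h1 : Set.range (hW.fromSpec ≫ f) ⊆ Set.range jV := by
    rintro _ ⟨z, rfl⟩
    have h2 : hW.fromSpec z ∈ (W : Set X) := by rw [← hr]; exact ⟨z, rfl⟩
    rw [Scheme.Hom.comp_apply]
    exact (hWV h2).2
  refine ⟨R, Γ(X, W), hW.fromSpec, jV, inferInstance, hjV,
    Spec.preimage (IsOpenImmersion.lift jV (hW.fromSpec ≫ f) h1), ?_, ?_, ?_⟩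
  · rw [Spec.map_preimage, IsOpenImmersion.lift_fac]
  · change x ∈ Set.range hW.fromSpec
    rw [hr]
    exact hxW
  · intro z hz
    have h2 : z ∈ Set.range hW.fromSpec := hz
    rw [hr] at h2
    exact (hWV h2).1

variable {f}

theorem flat_of_chart [Flat f] {R A : CommRingCat.{u}} {jU : Spec A ⟶ X} {jV : Spec R ⟶ Y} [IsOpenImmersion jU]
    [IsOpenImmersion jV] {φ : R ⟶ A} (w : jU ≫ f = Spec.map φ ≫ jV) : φ.hom.Flat := by
  have h1 : Flat (Spec.map φ ≫ jV) := by rw [← w]; infer_instance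
  have h2 : Flat (Spec.map φ) :=
    MorphismProperty.of_postcomp (W := @Flat) (W' := @IsOpenImmersion) _ jV inferInstance h1
  exact (HasRingHomProperty.Spec_iff (P := @Flat)).1 h2

theorem finiteType_of_chart [LocallyOfFiniteType f] {R A : CommRingCat.{u}} {jU : Spec A ⟶ X}
    {jV : Spec R ⟶ Y} [IsOpenImmersion jU] (φ : R ⟶ A) (w : jU ≫ f = Spec.map φ ≫ jV) :
    φ.hom.FiniteType := by
  have h1 : LocallyOfFiniteType (Spec.map φ ≫ jV) := by rw [← w]; infer_instance
  have h2 : LocallyOfFiniteType (Spec.map φ) := locallyOfFiniteType_of_comp _ jV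
  exact (HasRingHomProperty.Spec_iff (P := @LocallyOfFiniteType)).1 h2

theorem isNoetherianRing_of_openImmersion [IsLocallyNoetherian X] {A : CommRingCat.{u}} (j : Spec A ⟶ X)
    [IsOpenImmersion j] : IsNoetherianRing A := by
  have h1 : IsLocallyNoetherian (Spec A) := LocallyOfFiniteType.isLocallyNoetherian j
  have h2 : IsNoetherian (Spec A) := ⟨⟩
  have := isNoetherian_Spec (R := A)
  exact this.1 h2

/-- A presentation of a finite type ring map by a polynomial ring. -/
theorem exists_presentation {R A : CommRingCat.{u}} (φ : R ⟶ A) (h : φ.hom.FiniteType) :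
    letI := φ.hom.toAlgebra
    ∃ (n : ℕ) (ψ : MvPolynomial (Fin n) R →ₐ[R] A), Function.Surjective ψ := by
  let _ : Algebra R A := φ.hom.toAlgebra
  have h' : Algebra.FiniteType R A := h
  exact Algebra.FiniteType.iff_quotient_mvPolynomial''.mp h'

end Groth.Agent.Dual.H349.Chart
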