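import Groth.Agent.LoccohB.AdMain
import Groth.Agent.S1824
import Groth.Agent.S1614
import Groth.Agent.LoccohB.LBC2
import Groth.Prelude.Def_DualSh
import Groth.Prelude.Def_Dual3

/-!
# The upper shriek of the structure sheaf over affine opens is the tilde of the algebraic upper shriek

* `chart_univ`: for `π : P^n_R ⟶ Spec R` and `L` universal for `(π, O)`, `L` restricted to the chart
  `Spec R[x_1, …, x_n]` is `O[n]`.
* `bridge_affine`, `bridge_univ`, `bridge`: for `f : X ⟶ Y` proper, `M` universal for `(f, O_Y)` and affine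
  opens `Spec A ⊆ X`, `Spec R ⊆ Y`: `M|_{Spec A} ≅ (shriekVia n Rψ R)~`.
* `shriekC_bridge`: the same for `Dual3.shriekC`.
-/

set_option autoImplicit false

universe u

open CategoryTheory CategoryTheory.Limits AlgebraicGeometry Pretriangulated

attribute [local instance] HasDerivedCategory.standard

namespace Groth.Agent.Dual.H349.Bridge

open DerivedCategory Groth.Agent.LoccohB Groth.Agent.LoccohB.AdAffine Groth.Agent.LoccohB.AdStruct
open Groth.Agent.Ega1.ADualUniv Groth.Agent.Ega1.ADualOpen Groth.Agent.Dcoh.DerSch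
open Groth.Agent.PerfA.Restrict (restrictD)

/-- `A` in degree `0` is the structure sheaf. -/
noncomputable def isoO (R : CommRingCat.{u}) :
    (tD R).obj (_root_.Dual.inD R R) ≅ DCoh.inD (Spec R) (Coh.structureModule (Spec R)) :=
  AdProj.isoO R

/-- Restriction of a shifted module in degree zero. -/
noncomputable def restrictShift {X Y : Scheme.{u}} (j : X ⟶ Y) [IsOpenImmersion j] (M : Y.Modules) (n : ℤ) :
    (restrictD j).obj ((DCoh.inD Y M)⟦n⟧) ≅ (DCoh.inD X ((Scheme.Modules.restrictFunctor j).obj M))⟦n⟧ :=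
  PerfA.PerfLocal.restrictDShift j _ n ≪≫
    (shiftFunctor (DCoh.D X) n).mapIso (PerfA.PerfLocal.restrictInD j M)

/-- Restriction of the structure sheaf. -/
noncomputable def restrictO {X Y : Scheme.{u}} (j : X ⟶ Y) [IsOpenImmersion j] :
    (restrictD j).obj (DCoh.inD Y (Coh.structureModule Y)) ≅ DCoh.inD X (Coh.structureModule X) :=
  PerfA.PerfLocal.restrictInD j _ ≪≫
    (singleFunctor X.Modules 0).mapIso (Scheme.Modules.restrictUnitIso j)

theorem nonempty_restrict_chart (n : ℕ) (R : Type u) [CommRing R] (d : ℤ) :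
    Nonempty ((Scheme.Modules.restrictFunctor (Sga5.ProjSmooth.chart n R 0)).obj
      (Twist.twistProjSpace n R d) ≅ Coh.structureModule
        (Spec (CommRingCat.of (MvPolynomial (Fin n) R)))) := by
  let U : (CohB1.ProjSpace n R).Opens := Proj.basicOpen (CohB1.polyGrading n R) (MvPolynomial.X 0)
  obtain ⟨e⟩ := S1614.result (CohB1.polyGrading n R) 1 one_pos (MvPolynomial.X 0)
    (MvPolynomial.isHomogeneous_X _ _) d
  let j := Sga5.ProjSmooth.chart n R 0
  let g : Spec (CommRingCat.of (MvPolynomial (Fin n) R)) ⟶ U := IsOpenImmersion.lift U.ι j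
    (by
      rw [Scheme.Opens.range_ι]
      intro z hz
      have hz' : z ∈ (Sga5.ProjSmooth.chart n R 0).opensRange := hz
      rw [Sga5.ProjSmooth.opensRange_chart n R 0] at hz'
      exact hz')
  have hg : g ≫ U.ι = j := IsOpenImmersion.lift_fac _ _ _
  have : IsOpenImmersion (g ≫ U.ι) := by rw [hg]; exact inferInstanceAs (IsOpenImmersion (Sga5.ProjSmooth.chart n R 0))
  have : IsOpenImmersion g := IsOpenImmersion.of_comp g U.ι
  have e' : (Twist.twistProjSpace n R d).restrict U.ι ≅ Coh.structureModule U := by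
    have : (d * ((1 : ℕ) : ℤ)) = d := by simp
    rw [this] at e
    exact e
  exact ⟨(Scheme.Modules.restrictFunctorCongr hg.symm).app _ ≪≫
    (Scheme.Modules.restrictFunctorComp g U.ι).app _ ≪≫
    (Scheme.Modules.restrictFunctor g).mapIso e' ≪≫ Scheme.Modules.restrictUnitIso g⟩

/-- The universal object of `P^n_R` over `O`, restricted to the affine chart, is `O[n]`. -/
theorem chart_univ (n : ℕ) (R : Type u) [CommRing R] [IsNoetherianRing R]
    [DCoh.HasRpush (CohB1.ProjSpace.toSpec n R)]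
    {K : DCoh.D (Spec (CommRingCat.of R))}
    (eK : K ≅ DCoh.inD _ (Coh.structureModule (Spec (CommRingCat.of R))))
    {L : DCoh.D (CohB1.ProjSpace n R)}
    (hL : Ega1.ADualUniv.Univ (CohB1.ProjSpace.toSpec n R) K L) :
    Nonempty ((restrictD (Sga5.ProjSmooth.chart n R 0)).obj L ≅
      (DCoh.inD _ (Coh.structureModule (Spec (CommRingCat.of (MvPolynomial (Fin n) R)))))⟦(n : ℤ)⟧) := by
  have hR : IsNoetherianRing (CommRingCat.of R) := ‹_›
  have : IsProper (CohB1.ProjSpace.toSpec n R) := Ega3B.ProjProper.isProper_toSpec n R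
  have hP : IsNoetherian (CohB1.ProjSpace n R) :=
    isNoetherian_of_finiteType (CohB1.ProjSpace.toSpec n R)
  have hf : ∀ N : DCoh.D (CohB1.ProjSpace n R), DCoh.IsQCohD N →
      DCoh.IsQCohD ((DCoh.Rpush (CohB1.ProjSpace.toSpec n R)).obj N) :=
    fun N hN => S0998.result (CohB1.ProjSpace.toSpec n R) N hN
  have := S1766.result _ _ (CohB1.ProjSpace.toSpec n R) hf
  let adj := Adjunction.ofIsLeftAdjoint (ObjectProperty.lift DCoh.IsQCohD
    (ObjectProperty.ι DCoh.IsQCohD ⋙ DCoh.Rpush (CohB1.ProjSpace.toSpec n R))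
      (fun K => hf K.obj K.property))
  have hO : DCoh.IsQCohD (DCoh.inD (Spec (CommRingCat.of R)) (Coh.structureModule (Spec (CommRingCat.of R)))) :=
    PerfA.QCohD.isQCohD_inD _ (PerfA.QCohSerre.isQCoh_unit _)
  let O : DCoh.DQCoh (Spec (CommRingCat.of R)) := ⟨_, hO⟩
  obtain ⟨e1⟩ := S1824.result n R hf _ adj O ⟨Iso.refl _⟩
  obtain ⟨e2⟩ := (hL.of_iso_right eK).unique (univ_of_adj adj O)
  obtain ⟨e3⟩ := nonempty_restrict_chart n R (-((n : ℤ) + 1))
  exact ⟨(restrictD _).mapIso (e2 ≪≫ e1) ≪≫ restrictShift _ _ _ ≪≫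
    (shiftFunctor _ (n : ℤ)).mapIso ((singleFunctor _ 0).mapIso e3)⟩

section Affine

variable (R : Type u) [CommRing R] [IsNoetherianRing R] {X : Scheme.{u}}
  (f : X ⟶ Spec (CommRingCat.of R)) [IsProper f] [DCoh.HasRpush f]

/-- The bridge over a Noetherian affine base. -/
theorem bridge_affine {K : DCoh.D (Spec (CommRingCat.of R))}
    (eK : K ≅ DCoh.inD _ (Coh.structureModule (Spec (CommRingCat.of R))))
    {M : DCoh.D X} (hM : Ega1.ADualUniv.Univ f K M)
    {A : CommRingCat.{u}} (j : Spec A ⟶ X) [IsOpenImmersion j] (n : ℕ)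
    (ψ : MvPolynomial (Fin n) R →+* A) (hψ : Function.Surjective ψ)
    (hj : j ≫ f = Spec.map (CommRingCat.ofHom (ψ.comp MvPolynomial.C)))
    [DRing.HasLBaseChange (algebraMap R (MvPolynomial (Fin n) R))]
    {Rψ : _root_.Dual.D (MvPolynomial (Fin n) R) ⥤ _root_.Dual.D A}
    (adj : DRing.restrictD ψ ⊣ Rψ) :
    Nonempty ((restrictD j).obj M ≅ (tD A).obj (Dual2.shriekVia n Rψ (_root_.Dual.inD R R))) := by
  have hX : IsNoetherian X := isNoetherian_of_finiteType f
  have hKq : DCoh.IsQCohD K := PerfA.QCohD.isQCohD_of_iso eK.symm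
    (PerfA.QCohD.isQCohD_inD _ (PerfA.QCohSerre.isQCoh_unit _))
  have hKc : K.IsGE 0 :=
    (TStructure.t : Triangulated.TStructure (DCoh.D (Spec (CommRingCat.of R)))).isGE_of_iso eK.symm 0
  let P := CommRingCat.of (MvPolynomial (Fin n) R)
  let φ : P ⟶ A := CommRingCat.ofHom ψ
  have hφ : Function.Surjective φ.hom := hψ
  have hcl : IsClosedImmersion (Spec.map φ) := IsClosedImmersion.spec_of_surjective φ hφ
  have : IsNoetherianRing P := inferInstanceAs (IsNoetherianRing (MvPolynomial (Fin n) R))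
  let π := CohB1.ProjSpace.toSpec n R
  have hπ : IsProper π := Ega3B.ProjProper.isProper_toSpec n R
  have : DCoh.HasRpush π := hasRpush π
  have : DCoh.HasRpush (Spec.map φ) := hasRpush (Spec.map φ)
  let l : Spec P ⟶ CohB1.ProjSpace n R := Sga5.ProjSmooth.chart n R 0
  have hl : IsOpenImmersion l := inferInstanceAs (IsOpenImmersion (Sga5.ProjSmooth.chart n R 0))
  have hs : Spec.map φ ≫ l ≫ π = j ≫ f := by
    have h1 : l ≫ π = Spec.map (CommRingCat.ofHom (MvPolynomial.C : R →+* MvPolynomial (Fin n) R)) :=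
      Sga5.ProjSmooth.chart_toSpec n R 0
    rw [h1, hj, ← Spec.map_comp]
    rfl
  have hP : IsNoetherian (CohB1.ProjSpace n R) := isNoetherian_of_finiteType π
  obtain ⟨L, hL⟩ := exists_univ π K hKq
  obtain ⟨e1⟩ := chart_univ n R eK hL
  have h2 := Univ.structure f π j l (Spec.map φ) hs hKq 0 hKc hM hL
  let K₁ : _root_.Dual.D (MvPolynomial (Fin n) R) :=
    (DRing.LBaseChange (algebraMap R (MvPolynomial (Fin n) R))).obj (_root_.Dual.inD R R)
  let e0 : K₁ ≅ _root_.Dual.inD (MvPolynomial (Fin n) R) (MvPolynomial (Fin n) R) := LBC.lbcSelfIso _ 0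
  let e3 : (tD P).obj K₁ ≅ DCoh.inD (Spec P) (Coh.structureModule (Spec P)) :=
    (tD P).mapIso e0 ≪≫ isoO P
  let eK₀ : (tD P).obj (K₁⟦(n : ℤ)⟧) ≅ (restrictD l).obj L :=
    ((tD P).commShiftIso (n : ℤ)).app K₁ ≪≫ (shiftFunctor _ (n : ℤ)).mapIso e3 ≪≫ e1.symm
  obtain ⟨e2⟩ := nonempty_iso_radj φ hφ h2 (K₁⟦(n : ℤ)⟧) eK₀ (R := Rψ) adj
  obtain ⟨e4⟩ := LBC.radj_shift (φ := ψ) adj K₁ (n : ℤ)
  exact ⟨e2.symm ≪≫ (tD A).mapIso e4⟩

end Affine

section General

variable {X Y : Scheme.{u}} [IsNoetherian Y] (f : X ⟶ Y) [IsProper f] [DCoh.HasRpush f]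

/-- **The bridge** for a proper morphism. -/
theorem bridge {K : DCoh.D Y} (eK : K ≅ DCoh.inD Y (Coh.structureModule Y))
    {M : DCoh.D X} (hM : Ega1.ADualUniv.Univ f K M)
    {A R : CommRingCat.{u}} (jU : Spec A ⟶ X) [IsOpenImmersion jU] (jV : Spec R ⟶ Y) [IsOpenImmersion jV]
    (φ : R ⟶ A) (h : jU ≫ f = Spec.map φ ≫ jV) (n : ℕ)
    (ψ : MvPolynomial (Fin n) R →+* A) (hψ : Function.Surjective ψ)
    (hψC : ψ.comp MvPolynomial.C = φ.hom)
    [DRing.HasLBaseChange (algebraMap R (MvPolynomial (Fin n) R))]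
    {Rψ : _root_.Dual.D (MvPolynomial (Fin n) R) ⥤ _root_.Dual.D A}
    (adj : DRing.restrictD ψ ⊣ Rψ) :
    Nonempty ((restrictD jU).obj M ≅ (tD A).obj (Dual2.shriekVia n Rψ (_root_.Dual.inD R R))) := by
  have hR : IsNoetherian (Spec R) := isNoetherian_of_finiteType jV
  have hR' : IsNoetherianRing R := by
    have := isNoetherian_Spec (R := R)
    exact this.1 hR
  have hKq : DCoh.IsQCohD K := PerfA.QCohD.isQCohD_of_iso eK.symm
    (PerfA.QCohD.isQCohD_inD _ (PerfA.QCohSerre.isQCoh_unit _))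
  have hKc : K.IsGE 0 := (TStructure.t : Triangulated.TStructure (DCoh.D Y)).isGE_of_iso eK.symm 0
  have hp : IsPullback (pullback.fst f jV) (pullback.snd f jV) f jV := IsPullback.of_hasPullback f jV
  have : DCoh.HasRpush (pullback.snd f jV) := hasRpush _
  have h1 := Univ.restrict f hp hKq 0 hKc hM
  let g : Spec A ⟶ pullback f jV := pullback.lift jU (Spec.map φ) h
  have hg1 : g ≫ pullback.fst f jV = jU := pullback.lift_fst _ _ _
  have hg2 : g ≫ pullback.snd f jV = Spec.map φ := pullback.lift_snd _ _ _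
  have : IsOpenImmersion (g ≫ pullback.fst f jV) := by rw [hg1]; infer_instance
  have : IsOpenImmersion g := IsOpenImmersion.of_comp g (pullback.fst f jV)
  obtain ⟨e⟩ := bridge_affine R (pullback.snd f jV) ((restrictD jV).mapIso eK ≪≫ restrictO jV) h1 g n ψ hψ
    (by rw [hg2, hψC]; rfl) adj
  exact ⟨((PerfA.PerfLocal.restrictDComp g (pullback.fst f jV) ≪≫
      PerfA.PerfLocal.restrictDCongr hg1).app M).symm ≪≫ e⟩

end General

section Shriek

variable {S X Y : Scheme.{u}} [IsNoetherian S] (q : Y ⟶ S) [_root_.Dual3.IsSepFT q] (f : X ⟶ Y)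
  (c : DEt.Compactification f) [DCoh.HasRpush c.fbar] (hc : DCoh.RpushPreservesQCoh c.fbar)
  (a : DCoh.DQCoh Y ⥤ DCoh.DQCoh c.Xbar) (adj : DCoh.RpushQ c.fbar hc ⊣ a)
  [∀ (U V : Scheme.{u}) (j : U ⟶ V) [IsOpenImmersion j], PreservesFiniteLimits (Scheme.Modules.restrictFunctor j)]

include adj q in
/-- **The bridge** for the upper shriek functor: `(f^! O_Y)|_{Spec A} = (shriekVia n Rψ R)~`. -/
theorem shriekC_bridge (O : DCoh.DQCoh Y) (hO : Nonempty (O.obj ≅ DCoh.inD Y (Coh.structureModule Y)))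
    {A R : CommRingCat.{u}} (jU : Spec A ⟶ X) [IsOpenImmersion jU] (jV : Spec R ⟶ Y) [IsOpenImmersion jV]
    (φ : R ⟶ A) (h : jU ≫ f = Spec.map φ ≫ jV) (n : ℕ)
    (ψ : MvPolynomial (Fin n) R →+* A) (hψ : Function.Surjective ψ)
    (hψC : ψ.comp MvPolynomial.C = φ.hom)
    [DRing.HasLBaseChange (algebraMap R (MvPolynomial (Fin n) R))]
    {Rψ : _root_.Dual.D (MvPolynomial (Fin n) R) ⥤ _root_.Dual.D A}
    (adjψ : DRing.restrictD ψ ⊣ Rψ) :
    Nonempty ((DCoh.restrictD jU).obj ((_root_.Dual3.shriekC c a).obj O) ≅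
      (DCoh.tildeD A).obj (Dual2.shriekVia n Rψ (_root_.Dual.inD R R))) := by
  have : IsNoetherian Y := isNoetherian_of_finiteType q
  obtain ⟨eO⟩ := hO
  have hM : Ega1.ADualUniv.Univ c.fbar O.obj (a.obj O).obj := univ_of_adj (h := hc) (a := a) adj O
  have h' : (jU ≫ c.j) ≫ c.fbar = Spec.map φ ≫ jV := by rw [Category.assoc, c.fac, h]
  obtain ⟨e⟩ := bridge c.fbar eO hM (jU ≫ c.j) jV φ h' n ψ hψ hψC adjψ
  exact ⟨(PerfA.PerfLocal.restrictDComp jU c.j).app _ ≪≫ e⟩

end Shriek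

end Groth.Agent.Dual.H349.Bridge
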