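import Groth.Agent.LoccohB.Detect531
import Groth.Agent.LoccohB.TensShriek
import Groth.Agent.LoccohB.LTenUnit
import Groth.Agent.LoccohB.TildeEta2
import Groth.Agent.LoccohB.ThetaT

/-!
# `O_X → RHom(E, E)` is an isomorphism: local criterion

`isIso_homEquiv`: let `E` be a complex of `O_X`-modules such that every point has arbitrarily small affine open
neighbourhoods `Spec A` with `E|_{Spec A} ≅ w~`, `w ∈ D(A)`, `A = End(w)` and `Hom(w, w[i]) = 0` for `i ≠ 0`.  Then for
every isomorphism `υ : O_X ⊗ᴸ E ≅ E` the adjoint map `O_X → RHom(E, E)` is an isomorphism.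
-/

set_option autoImplicit false

universe v₁ v₂ v₃ u₁ u₂ u₃ u

open CategoryTheory CategoryTheory.Limits AlgebraicGeometry

attribute [local instance] HasDerivedCategory.standard

namespace Groth.Agent.Dual.H349.Endo

section Abstract

variable {C : Type u₁} [Category.{v₁} C] {D : Type u₂} [Category.{v₂} D] {E : Type u₃} [Category.{v₃} E]

/-- `F` is bijective on `Hom(M, N)`. -/
def BijOn (F : C ⥤ D) (M N : C) : Prop := Function.Bijective (fun g : M ⟶ N => F.map g)

lemma BijOn.of_iso {F : C ⥤ D} {M N M' N' : C} (h : BijOn F M N) (eM : M ≅ M') (eN : N ≅ N') :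
    BijOn F M' N' := by
  have h1 : (fun g : M' ⟶ N' => F.map g) =
      (fun k : F.obj M ⟶ F.obj N => F.map eM.inv ≫ k ≫ F.map eN.hom) ∘ (fun g : M ⟶ N => F.map g) ∘
        (fun g : M' ⟶ N' => eM.hom ≫ g ≫ eN.inv) := by
    funext g
    simp [← Functor.map_comp]
  unfold BijOn
  rw [h1]
  refine Function.Bijective.comp ?_ (Function.Bijective.comp h ?_)
  · exact ((F.mapIso eM).homCongr (F.mapIso eN)).bijective
  · exact (eM.symm.homCongr eN.symm).bijective

lemma BijOn.of_natIso {F G : C ⥤ D} (α : F ≅ G) {M N : C} (h : BijOn F M N) : BijOn G M N := by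
  have h1 : (fun g : M ⟶ N => G.map g) =
      ((α.app M).homCongr (α.app N)) ∘ (fun g : M ⟶ N => F.map g) := by
    funext g
    simp [Iso.homCongr]
  unfold BijOn
  rw [h1]
  exact (Equiv.bijective _).comp h

lemma BijOn.comp {F : C ⥤ D} {G : D ⥤ E} {M N : C} (h : BijOn F M N) (h' : BijOn G (F.obj M) (F.obj N)) :
    BijOn (F ⋙ G) M N :=
  Function.Bijective.comp (g := fun k : F.obj M ⟶ F.obj N => G.map k) h' h

lemma BijOn.of_comp_right {F : C ⥤ D} {G : D ⥤ E} {M N : C} (h : BijOn (F ⋙ G) M N) (h' : BijOn F M N) :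
    BijOn G (F.obj M) (F.obj N) := (Function.Bijective.of_comp_iff _ h').1 h

lemma BijOn.of_comp_left {F : C ⥤ D} {G : D ⥤ E} {M N : C} (h : BijOn (F ⋙ G) M N)
    (h' : BijOn G (F.obj M) (F.obj N)) : BijOn F M N := (Function.Bijective.of_comp_iff' h' _).1 h

lemma bijOn_of_fullyFaithful (F : C ⥤ D) [F.Full] [F.Faithful] (M N : C) : BijOn F M N :=
  ⟨F.map_injective, F.map_surjective⟩

/-- The right adjoint `R` is bijective on `Hom(P, N)` if the counit at `P` is an isomorphism. -/
lemma bijOn_of_counit {L : C ⥤ D} {R : D ⥤ C} (adj : L ⊣ R) (P N : D) (h : IsIso (adj.counit.app P)) :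
    BijOn R P N := by
  have h1 : (fun g : P ⟶ N => R.map g) =
      (adj.homEquiv (R.obj P) N) ∘ (fun g : P ⟶ N => adj.counit.app P ≫ g) := by
    funext g
    simp [Adjunction.homEquiv_unit]
  unfold BijOn
  rw [h1]
  refine (Equiv.bijective _).comp ?_
  exact (asIso (adj.counit.app P)).homFromEquiv.symm.bijective

end Abstract

section Alg

open LoccohB LoccohB.LTenUnit LoccohB.LTen

variable {A : Type u} [CommRing A]

/-- `w ∈ D(A)` is an endo-object: `A = End(w)`, `Hom(w, w[i]) = 0` for `i ≠ 0`. -/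
structure IsEndo (w : _root_.Dual.D A) : Prop where
  bij : Function.Bijective (fun a : A => a • 𝟙 w)
  ext : ∀ i : ℤ, i ≠ 0 → Subsingleton (w ⟶ w⟦i⟧)

/-- Morphisms `A[-m] → A` in `D(A)`. -/
lemma subsingleton_sg (m : ℤ) (hm : m ≠ 0) :
    Subsingleton (DerivedCategory.Q.obj (sg A m) ⟶ DerivedCategory.Q.obj (sg A 0)) := by
  have key : ∀ f : DerivedCategory.Q.obj (sg A m) ⟶ DerivedCategory.Q.obj (sg A 0), f = 0 := by
    intro f
    have : Projective (ModuleCat.of A A) :=
      (IsProjective.iff_projective (ModuleCat.of A A)).1 inferInstance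
    obtain ⟨g, rfl⟩ := DBase.exists_Q_map_eq (L := sg A 0) m f
    have hg : g = 0 := by
      refine HomologicalComplex.hom_ext _ _ fun i => ?_
      by_cases hi : i = m
      · exact (HomologicalComplex.isZero_single_obj_X (ComplexShape.up ℤ) 0 (ModuleCat.of A A) i
          (by omega)).eq_of_tgt _ _
      · exact (HomologicalComplex.isZero_single_obj_X (ComplexShape.up ℤ) m (ModuleCat.of A A) i hi).eq_of_src _ _
    rw [hg]
    exact Functor.map_zero _ _ _
  exact ⟨fun f g => (key f).trans (key g).symm⟩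

lemma bijective_of {w w' : _root_.Dual.D A} (e : w ≅ w') (h : Function.Bijective (fun a : A => a • 𝟙 w)) :
    Function.Bijective (fun a : A => a • 𝟙 w') := by
  have h1 : (fun a : A => a • 𝟙 w') = (e.homCongr e) ∘ (fun a : A => a • 𝟙 w) := by
    funext a
    simp [Iso.homCongr, Linear.smul_comp, Linear.comp_smul]
  rw [h1]
  exact (Equiv.bijective _).comp h

lemma IsEndo.of_iso {w w' : _root_.Dual.D A} (e : w ≅ w') (h : IsEndo w) : IsEndo w' := by
  refine ⟨bijective_of e h.bij, fun i hi => ?_⟩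
  have := h.ext i hi
  exact (e.homCongr ((CategoryTheory.shiftFunctor _ i).mapIso e)).symm.subsingleton

lemma bijective_sg : Function.Bijective (fun a : A => a • 𝟙 (DerivedCategory.Q.obj (sg A 0))) := by
  have h1 : Function.Bijective (fun a : A => a • 𝟙 (ModuleCat.of A A)) := by
    constructor
    · intro a b hab
      have h := congrArg (fun f : ModuleCat.of A A ⟶ ModuleCat.of A A => f.hom (1 : A)) hab
      have ha : ∀ c : A, (c • 𝟙 (ModuleCat.of A A)).hom (1 : A) = c := fun c => by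
        change c • (1 : A) = c
        rw [smul_eq_mul, mul_one]
      exact (ha a).symm.trans (h.trans (ha b))
    · intro f
      refine ⟨f.hom (1 : A), ?_⟩
      apply ModuleCat.hom_ext
      apply LinearMap.ext_ring
      change (f.hom (1 : A)) • (1 : A) = f.hom (1 : A)
      rw [smul_eq_mul, mul_one]
  refine bijective_of ((DerivedCategory.singleFunctorIsoCompQ (ModuleCat.{u} A) 0).app (ModuleCat.of A A)) ?_
  have h2 : (fun a : A => a • 𝟙 ((DerivedCategory.singleFunctor (ModuleCat.{u} A) 0).obj (ModuleCat.of A A))) =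
      (fun g : ModuleCat.of A A ⟶ ModuleCat.of A A =>
        (DerivedCategory.singleFunctor (ModuleCat.{u} A) 0).map g) ∘ (fun a : A => a • 𝟙 (ModuleCat.of A A)) := by
    funext a
    simp [Functor.map_smul]
  rw [h2]
  exact Function.Bijective.comp ⟨Functor.map_injective _, Functor.map_surjective _⟩ h1

/-- `- ⊗ᴸ K` is bijective on `Hom(A[-m], A)`. -/
theorem bijOn_lten (K : DRing.Cx A) [DRing.HasLTensorCx A K] (hK : IsEndo (DRing.toD K)) (m : ℤ) :
    BijOn (DRing.LTensorCx A K) (DerivedCategory.Q.obj (sg A m)) (DerivedCategory.Q.obj (sg A 0)) := by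
  by_cases hm : m = 0
  · subst hm
    have h1 : (fun a : A => a • 𝟙 ((DRing.LTensorCx A K).obj (DerivedCategory.Q.obj (sg A 0)))) =
        (fun g : DerivedCategory.Q.obj (sg A 0) ⟶ DerivedCategory.Q.obj (sg A 0) =>
          (DRing.LTensorCx A K).map g) ∘ (fun a : A => a • 𝟙 (DerivedCategory.Q.obj (sg A 0))) := by
      funext a
      exact (lten_map_smul K 0 a).symm
    refine (Function.Bijective.of_comp_iff _ bijective_sg).1 ?_
    rw [← h1]
    exact bijective_of (ltenSg K 0 ≪≫ (CategoryTheory.shiftFunctorZero' _ (-0) (by simp)).app _).symm hK.bij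
  · have i1 := subsingleton_sg (A := A) m hm
    have i2 : Subsingleton ((DRing.LTensorCx A K).obj (DerivedCategory.Q.obj (sg A m)) ⟶
        (DRing.LTensorCx A K).obj (DerivedCategory.Q.obj (sg A 0))) := by
      have := hK.ext m hm
      have h2 : Subsingleton ((DRing.toD K)⟦-m⟧⟦m⟧ ⟶ (DRing.toD K)⟦m⟧) :=
        @Equiv.subsingleton _ _ (((CategoryTheory.shiftFunctorCompIsoId _ (-m) m (by simp)).app
          (DRing.toD K)).homCongr (Iso.refl _)) (hK.ext m hm)
      have h3 : Subsingleton ((DRing.toD K)⟦-m⟧ ⟶ DRing.toD K) :=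
        @Equiv.subsingleton _ _ ((Functor.FullyFaithful.ofFullyFaithful
          (CategoryTheory.shiftFunctor (_root_.Dual.D A) m)).homEquiv
          (X := (DRing.toD K)⟦-m⟧) (Y := DRing.toD K)) h2
      exact @Equiv.subsingleton _ _ ((ltenSg K m).homCongr (ltenSg K 0 ≪≫
        (CategoryTheory.shiftFunctorZero' _ (-0) (by simp)).app _)) h3
    exact ⟨fun _ _ _ => Subsingleton.elim _ _, fun g => ⟨0, Subsingleton.elim _ _⟩⟩

end Alg

section Scheme

open LoccohB.TildeEta LoccohB.ThetaT LoccohB.TensShriek LoccohB.LTenUnit LoccohB.Detect531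
open PerfA.Restrict (restrictD)

/-- The local computation on `Spec A`. -/
theorem bijOn_spec {A : Type u} [CommRing A] (w : _root_.Dual.D A) (hw : IsEndo w)
    (E : CochainComplex (Spec (CommRingCat.of A)).Modules ℤ)
    (e : DerivedCategory.Q.obj E ≅ (tA A).obj w) (m : ℤ) :
    BijOn (ltR E) ((DerivedCategory.singleFunctor (Spec (CommRingCat.of A)).Modules m).obj
        (Coh.structureModule (Spec (CommRingCat.of A))))
      ((DerivedCategory.singleFunctor (Spec (CommRingCat.of A)).Modules 0).obj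
        (Coh.structureModule (Spec (CommRingCat.of A)))) := by
  let K₀ : DRing.Cx A := DerivedCategory.Q.objPreimage w
  let e₀ : DerivedCategory.Q.obj K₀ ≅ w := DerivedCategory.Q.objObjPreimageIso w
  obtain ⟨P, p, hP, hp, -, -⟩ := LoccohB.KProj.exists_kprojective K₀
  have hp' : IsIso (DerivedCategory.Q.map p) :=
    (DerivedCategory.isIso_Q_map_iff_quasiIso _ _).2 hp
  have := LoccohB.LTen.hasLTensorCx P
  let e₁ : DerivedCategory.Q.obj P ≅ w := asIso (DerivedCategory.Q.map p) ≪≫ e₀
  obtain ⟨θ⟩ := thetaP P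
  obtain ⟨e3⟩ := tAQ A
  have e4 : DerivedCategory.Q.obj E ≅ DerivedCategory.Q.obj (tP P) :=
    e ≪≫ (tA A).mapIso e₁.symm ≪≫ e3.app P
  have h1 := (bijOn_lten P (hw.of_iso e₁.symm) m).comp (G := tA A) (bijOn_of_fullyFaithful _ _ _)
  have h2 := (h1.of_natIso θ.symm).of_comp_right (bijOn_of_fullyFaithful _ _ _)
  have h3 := h2.of_natIso (ltRCongr e4.symm)
  let s : ∀ k : ℤ, (tA A).obj (DerivedCategory.Q.obj (sg A k)) ≅
      (DerivedCategory.singleFunctor (Spec (CommRingCat.of A)).Modules k).obj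
        (Coh.structureModule (Spec (CommRingCat.of A))) := fun k =>
    (tA A).mapIso ((DerivedCategory.singleFunctorIsoCompQ (ModuleCat.{u} A) k).symm.app (ModuleCat.of A A)) ≪≫
      (isoTildeD (CommRingCat.of A) k).symm
  exact h3.of_iso (s m) (s 0)

/-- The computation on `j_! O_Y[-m]` for a chart `j : Y = Spec A ⟶ X`. -/
theorem bijOn_chart {X : Scheme.{u}} (E : CochainComplex X.Modules ℤ) {A : Type u} [CommRing A]
    (j : Spec (CommRingCat.of A) ⟶ X) [IsOpenImmersion j] (w : _root_.Dual.D A) (hw : IsEndo w)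
    (e : (restrictD j).obj (DCoh.toD X E) ≅ (tA A).obj w) (m : ℤ) :
    BijOn (ltR E) ((PerfC.ExtZeroD.shriekD j).obj
      ((DerivedCategory.singleFunctor (Spec (CommRingCat.of A)).Modules m).obj
        (Coh.structureModule (Spec (CommRingCat.of A))))) (DCoh.inD X (Coh.structureModule X)) := by
  obtain ⟨E₀, hE₀, ⟨eE⟩⟩ := exists_kflat E
  obtain ⟨α⟩ := resTenD j hE₀
  let M := (DerivedCategory.singleFunctor (Spec (CommRingCat.of A)).Modules m).obj
        (Coh.structureModule (Spec (CommRingCat.of A)))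
  have e1 : DerivedCategory.Q.obj ((resCx j).obj E₀) ≅ (tA A).obj w :=
    (resQ j).symm.app E₀ ≪≫ (restrictD j).mapIso eE.symm ≪≫ e
  have h1 := bijOn_spec w hw _ e1 m
  have hO : (DerivedCategory.singleFunctor (Spec (CommRingCat.of A)).Modules 0).obj
        (Coh.structureModule (Spec (CommRingCat.of A))) ≅
      (restrictD j).obj (DCoh.inD X (Coh.structureModule X)) :=
    ((PerfA.PerfLocal.restrictInD j _ ≪≫
      (DerivedCategory.singleFunctor _ 0).mapIso (Scheme.Modules.restrictUnitIso j))).symm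
  have h2 := h1.of_iso (PerfC.ExtZeroD.unitIso j M) hO
  have hc : IsIso ((PerfC.ExtZeroD.adjunction j).counit.app ((PerfC.ExtZeroD.shriekD j).obj M)) :=
    LoccohB.LiftSq.isIso_counit_of_iso (PerfC.ExtZeroD.adjunction j) (Iso.refl _)
  have h3 := (bijOn_of_counit (PerfC.ExtZeroD.adjunction j) _
    (DCoh.inD X (Coh.structureModule X)) hc).comp h2
  have h4 := (h3.of_natIso α.symm).of_comp_left
    (bijOn_of_counit (PerfC.ExtZeroD.adjunction j) _ _ (isIso_counit_tensor j E₀ M))
  exact h4.of_natIso (ltRCongr eE.symm)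

/-- **Local criterion for `O_X ≅ RHom(E, E)`.** -/
theorem isIso_homEquiv {X : Scheme.{u}} (E : CochainComplex X.Modules ℤ) [DCoh.HasLTensorCx E]
    [DCoh.HasRSheafHom E]
    (hB : ∀ (x : X) (V : X.Opens), x ∈ V → ∃ (A : CommRingCat.{u}) (j : Spec A ⟶ X) (_ : IsOpenImmersion j)
      (w : _root_.Dual.D A), x ∈ j.opensRange ∧ j.opensRange ≤ V ∧ IsEndo w ∧
      Nonempty ((restrictD j).obj (DCoh.toD X E) ≅ (DCoh.tildeD A).obj w))
    (υ : (DCoh.LTensorCx E).obj (DCoh.inD X (Coh.structureModule X)) ≅ DCoh.toD X E) :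
    IsIso (((DCoh.RSheafHomAdj E).homEquiv (DCoh.inD X (Coh.structureModule X)) (DCoh.toD X E)) υ.hom) := by
  let ι := { p : Σ A : CommRingCat.{u}, (Spec A ⟶ X) // ∃ _ : IsOpenImmersion p.2, ∃ w : _root_.Dual.D p.1,
    IsEndo w ∧ Nonempty ((restrictD p.2).obj (DCoh.toD X E) ≅ (DCoh.tildeD p.1).obj w) }
  have : ∀ i : ι, IsOpenImmersion i.1.2 := fun i => i.2.1
  refine isIso_of_forall_bijective_shriek (fun i : ι => Spec i.1.1) (fun i => i.1.2) (fun x V hx => ?_) _ ?_
  · obtain ⟨A, j, hj, w, h1, h2, h3, h4⟩ := hB x V hx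
    exact ⟨⟨⟨A, j⟩, hj, w, h3, h4⟩, h1, h2⟩
  · rintro ⟨⟨A, j⟩, hj, w, hw, ⟨e⟩⟩ m
    have h1 := bijOn_chart E j w hw e m
    have h2 := h1.of_natIso (ltRIso E)
    have h3 : (fun g : (PerfC.ExtZeroD.shriekD j).obj
        ((DerivedCategory.singleFunctor (Spec A).Modules m).obj (Coh.structureModule (Spec A))) ⟶
          DCoh.inD X (Coh.structureModule X) =>
          g ≫ ((DCoh.RSheafHomAdj E).homEquiv (DCoh.inD X (Coh.structureModule X)) (DCoh.toD X E)) υ.hom) =
        ((DCoh.RSheafHomAdj E).homEquiv _ (DCoh.toD X E)) ∘ (fun k => k ≫ υ.hom) ∘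
          (fun g => (DCoh.LTensorCx E).map g) := by
      funext g
      exact ((DCoh.RSheafHomAdj E).homEquiv_naturality_left g υ.hom).symm
    rw [h3]
    exact (Equiv.bijective _).comp (Function.Bijective.comp υ.homToEquiv.bijective h2)

end Scheme

end Groth.Agent.Dual.H349.Endo
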