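import Groth.Agent.Dual.H349.Bridge
import Groth.Agent.Dual.H349.Chart
import Groth.Agent.LoccohB.RelOmega2

/-!
# Charts on which `f^! O_Y` is the tilde of a relative dualizing complex, `f` flat
-/

set_option autoImplicit false

universe u

open CategoryTheory CategoryTheory.Limits AlgebraicGeometry Pretriangulated

attribute [local instance] HasDerivedCategory.standard

namespace Groth.Agent.Dual.H349.OmegaChart

open DerivedCategory Groth.Agent.LoccohB

/-- `w : D(A)` has the properties of a relative dualizing complex of the Noetherian ring `A` over `R` (`φ : R → A` flat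
of finite type), see S1801. -/
structure IsOmega {R A : CommRingCat.{u}} (φ : R ⟶ A) (w : _root_.Dual.D A) : Prop where
  noeth_base : IsNoetherianRing R
  noeth : IsNoetherianRing A
  flat : φ.hom.Flat
  finiteType : φ.hom.FiniteType
  bounds : ∃ a b : ℤ, ∀ i : ℤ, (i < a ∨ b < i) → Subsingleton (_root_.Dual.HD A w i)
  finite : ∀ i : ℤ, Module.Finite A (_root_.Dual.HD A w i)
  torDim : DRing.HasFiniteTorDimCx R ((DRing.restrictD φ.hom).obj w)
  end_bijective : Function.Bijective (fun a : A => a • CategoryTheory.CategoryStruct.id w)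
  ext_zero : ∀ i : ℤ, i ≠ 0 → Subsingleton (w ⟶ w⟦i⟧)

/-- `shriekVia` of the base ring satisfies `IsOmega`. -/
theorem isOmega_shriekVia {R A : CommRingCat.{u}} [IsNoetherianRing R] (φ : R ⟶ A) (hφ : φ.hom.Flat)
    (n : ℕ) (ψ : MvPolynomial (Fin n) R →+* A) (hψ : Function.Surjective ψ) (hψC : ψ.comp MvPolynomial.C = φ.hom)
    [DRing.HasLBaseChange (algebraMap R (MvPolynomial (Fin n) R))]
    {Rψ : _root_.Dual.D (MvPolynomial (Fin n) R) ⥤ _root_.Dual.D A} (adj : DRing.restrictD ψ ⊣ Rψ) :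
    IsOmega φ (Dual2.shriekVia n Rψ (_root_.Dual.inD R R)) := by
  let _ : Algebra R A := φ.hom.toAlgebra
  let ψ' : MvPolynomial (Fin n) R →ₐ[R] A := { ψ with
    commutes' := fun r => congrArg (fun g : (R : Type u) →+* A => g r) hψC }
  have hψ' : Function.Surjective ψ' := hψ
  have hft : Algebra.FiniteType R A := Algebra.FiniteType.iff_quotient_mvPolynomial''.2 ⟨n, ψ', hψ'⟩
  have hA : IsNoetherianRing A := Algebra.FiniteType.isNoetherianRing R A
  have : Module.Flat R A := hφ
  obtain ⟨h1, h2, h3, h4, h5⟩ := Groth.Agent.LoccohB.RelOmega.noeth_omega n ψ' Rψ hψ' adj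
  exact ⟨inferInstance, hA, hφ, hft, h1, h2, h3, h4, h5⟩

section Shriek

variable {S X Y : Scheme.{u}} [IsNoetherian S] (q : Y ⟶ S) [_root_.Dual3.IsSepFT q] (f : X ⟶ Y) [LocallyOfFiniteType f]
  [Flat f]
  (c : DEt.Compactification f) [DCoh.HasRpush c.fbar] (hc : DCoh.RpushPreservesQCoh c.fbar)
  (a : DCoh.DQCoh Y ⥤ DCoh.DQCoh c.Xbar) (adj : DCoh.RpushQ c.fbar hc ⊣ a)
  [∀ (U V : Scheme.{u}) (j : U ⟶ V) [IsOpenImmersion j], PreservesFiniteLimits (Scheme.Modules.restrictFunctor j)]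

include adj q in
/-- **Charts for `f^! O_Y`, `f` flat**: for every chart `Spec A ⊆ X` over `Spec R ⊆ Y` the complex `(f^! O_Y)|_{Spec A}`
is `w~` with `IsOmega φ w`. -/
theorem exists_isOmega (O : DCoh.DQCoh Y) (hO : Nonempty (O.obj ≅ DCoh.inD Y (Coh.structureModule Y)))
    {A R : CommRingCat.{u}} (jU : Spec A ⟶ X) [IsOpenImmersion jU] (jV : Spec R ⟶ Y) [IsOpenImmersion jV]
    (φ : R ⟶ A) (h : jU ≫ f = Spec.map φ ≫ jV) :
    ∃ w : _root_.Dual.D A, IsOmega φ w ∧ Nonempty ((DCoh.restrictD jU).obj ((_root_.Dual3.shriekC c a).obj O) ≅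
      (DCoh.tildeD A).obj w) := by
  have : IsNoetherian Y := AdStruct.isNoetherian_of_finiteType q
  have hR : IsNoetherianRing R := Chart.isNoetherianRing_of_openImmersion jV
  let _ : Algebra R A := φ.hom.toAlgebra
  obtain ⟨n, ψ, hψ⟩ := Chart.exists_presentation φ (Chart.finiteType_of_chart φ h)
  have hψC : ψ.toRingHom.comp MvPolynomial.C = φ.hom := RingHom.ext fun r => ψ.commutes r
  have i1 := LBC.hasLBaseChange (algebraMap R (MvPolynomial (Fin n) R))
  refine ⟨_, isOmega_shriekVia φ (Chart.flat_of_chart h) n ψ.toRingHom hψ hψC (RAdj.coextAdj ψ.toRingHom), ?_⟩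
  exact Bridge.shriekC_bridge q f c hc a adj O hO jU jV φ h n ψ.toRingHom hψ hψC (RAdj.coextAdj ψ.toRingHom)

end Shriek

end Groth.Agent.Dual.H349.OmegaChart
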